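import Cfsg.Agent.GlaubermanZJ.FailureModel
import Cfsg.Agent.GlaubermanZJ.Fusion
import Cfsg.Agent.Coprime.Basic
import Cfsg.Agent.Eq.Def_PLocal
import Cfsg.Agent.S0604

/-!
Failure of Thompson factorization under a coprime action of an elementary abelian `q`-group.
-/

set_option autoImplicit false

open Cfsg
open scoped commutatorElement

namespace CfsgLib.GlaubermanZJ.Failure

variable {G : Type*} [Group G] [Finite G] {p : ℕ} [Fact p.Prime] {q : ℕ} [Fact q.Prime]
variable {K X : Subgroup G}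

omit [Fact p.Prime] in
/-- The conjugation action of `X` on `K`. -/
noncomputable def outer (hXK : X ≤ Subgroup.normalizer (K : Set G)) : ↥X →* MulAut ↥K :=
  K.normalizerMonoidHom.comp (Subgroup.inclusion hXK)

omit [Fact p.Prime] [Fact q.Prime] [Finite G] in
theorem outer_apply (hXK : X ≤ Subgroup.normalizer (K : Set G)) (x : ↥X) (k : ↥K) :
    ((outer hXK x k : ↥K) : G) = (x : G) * k * (x : G)⁻¹ := rfl

theorem five_le_of_ne_bot (hq : ¬ q ∣ Nat.card K) (hsep : IsPSolvable p ↥K) (hO : pPrimeCore p ↥K = ⊥)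
    (hne : hgrp p ↥K ≠ ⊥) : (p = 2 ∨ p = 3) ∧ 5 ≤ q := by
  have S := setting hsep hO
  obtain ⟨t, ht⟩ : ∃ t, FFModule.IsTransvection p (emb (K := ↥K)).range (hgrp p ↥K) t := by
    by_contra! h
    exact hne (le_bot_iff.1 (S.le_of_transvection (gen hsep hO) fun t ht => absurd ht (h t)))
  obtain ⟨a, b, e₁, e₂, c, P, -⟩ := S.exists_factor ht
  have hp := P.prime_le_three S
  have hd : p * (p ^ 2 - 1) ∣ Nat.card K :=
    P.card_dGroup S ▸ (Subgroup.card_dvd_of_le P.le_H).trans hgrp_card_dvd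
  refine ⟨hp, ?_⟩
  have hqp := (Fact.out : q.Prime).two_le
  by_contra hlt
  interval_cases q
  · exact hq ((show 2 ∣ p * (p ^ 2 - 1) by rcases hp with rfl | rfl <;> decide).trans hd)
  · exact hq ((show 3 ∣ p * (p ^ 2 - 1) by rcases hp with rfl | rfl <;> decide).trans hd)
  · exact absurd (Fact.out : Nat.Prime 4) (by decide)

omit [Fact q.Prime] in
theorem isPGroup_of_elementary (hX : IsElementaryAbelian q X) : IsPGroup q X :=
  LocalP.isPGroup_of_isElementaryAbelian hX

/-- An element whose image is centralized by `X` can be replaced by a fixed one. -/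
theorem exists_fixed_lift (hXK : X ≤ Subgroup.normalizer (K : Set G)) (hX : IsElementaryAbelian q X)
    (hq : ¬ q ∣ Nat.card K) {k : ↥K}
    (hk : act (p := p) k ∈ Subgroup.centralizer (((actAut (p := p)).comp (outer hXK)).range : Set (Amb p ↥K))) :
    ∃ k' ∈ (Subgroup.centralizer (X : Set G)).subgroupOf K, act (p := p) k' = act k := by
  set C := Subgroup.centralizer (centerClosure p ↥K : Set ↥K) with hC
  set N := C.map K.subtype with hN
  have hXN : X ≤ Subgroup.normalizer (N : Set G) := by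
    intro x hx
    refine Subgroup.mem_normalizer_iff_map_conj_eq.2 (Subgroup.eq_of_le_of_card_ge ?_
      (Subgroup.card_map_of_injective (MulAut.conj x).injective).ge)
    rintro _ ⟨_, ⟨c, hc, rfl⟩, rfl⟩
    refine ⟨outer hXK ⟨x, hx⟩ c, Subgroup.mem_centralizer_iff.2 fun v hv => ?_, rfl⟩
    have h1 := Subgroup.mem_centralizer_iff.1 hc _ (centerClosure_mem (outer hXK ⟨x, hx⟩).symm hv)
    apply (outer hXK ⟨x, hx⟩).symm.injective
    rw [map_mul, map_mul, MulEquiv.symm_apply_apply, h1]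
  have hcop : (Nat.card X).Coprime (Nat.card N) := by
    obtain ⟨i, hi⟩ := IsPGroup.iff_card.1 (isPGroup_of_elementary hX)
    rw [hi]
    refine (((Fact.out : q.Prime).coprime_iff_not_dvd.2 fun hd => hq (hd.trans ?_))).pow_left i
    exact Subgroup.card_dvd_of_le (Subgroup.map_subtype_le _)
  obtain ⟨n, hn, hnk⟩ := Coprime.exists_mul_mem_centralizer hXN hcop
    (Or.inl (Coprime.isSolvable_of_isMulCommutative hX.1)) (g := (k : G)) fun x hx => by
      refine ⟨k * outer hXK ⟨x, hx⟩ k⁻¹, ?_, ?_⟩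
      · refine act_eq_one.1 ?_
        rw [map_mul, ← actAut_act, map_inv]
        have h1 := Subgroup.mem_centralizer_iff.1 (inv_mem hk) _ ⟨⟨x, hx⟩, rfl⟩
        rw [MonoidHom.comp_apply] at h1
        rw [h1, mul_inv_cancel_right, mul_inv_cancel]
      · show (k : G) * (x * (k : G)⁻¹ * x⁻¹) = ⁅(k : G), x⁆
        rw [commutatorElement_def]; group
  obtain ⟨c, hc, rfl⟩ := hn
  exact ⟨c * k, hnk, by rw [map_mul, act_eq_one.2 hc, one_mul]⟩

theorem sup_eq_top (hXK : X ≤ Subgroup.normalizer (K : Set G)) (hX : IsElementaryAbelian q X)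
    (hq : ¬ q ∣ Nat.card K) (hsep : IsPSolvable p ↥K) (hO : pPrimeCore p ↥K = ⊥) (S : Sylow p ↥K) :
    (Subgroup.normalizer (thompsonSubgroupOf p (S : Subgroup ↥K) : Set ↥K) ⊔
      Subgroup.centralizer (omegaOne p ((S : Subgroup ↥K) ⊓ Subgroup.centralizer ((S : Subgroup ↥K) : Set ↥K)) : Set ↥K) ⊔
      (Subgroup.centralizer (X : Set G)).subgroupOf K) = ⊤ := by
  set M₀ := Subgroup.normalizer (thompsonSubgroupOf p (S : Subgroup ↥K) : Set ↥K) ⊔
      Subgroup.centralizer (omegaOne p ((S : Subgroup ↥K) ⊓ Subgroup.centralizer ((S : Subgroup ↥K) : Set ↥K)) : Set ↥K) ⊔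
      (Subgroup.centralizer (X : Set G)).subgroupOf K with hM₀
  set C := Subgroup.centralizer (centerClosure p ↥K : Set ↥K) with hC
  haveI : C.Normal := Subgroup.normal_centralizer
  haveI := LocalP.thompsonSubgroup_characteristic (p := p) (G := ↥K)
  set L := thompsonSubgroup p ↥K ⊔ C with hL
  have hCM : C ≤ M₀ := by
    refine le_trans (Subgroup.centralizer_le ?_) (le_sup_right.trans le_sup_left)
    exact le_iSup (fun S : Sylow p ↥K =>
      omegaOne p (((S : Subgroup ↥K)) ⊓ Subgroup.centralizer ((S : Subgroup ↥K) : Set ↥K))) S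
  have hJ : thompsonSubgroupOf p (S : Subgroup ↥K) ≤ thompsonSubgroup p ↥K := by
    rw [Cfsg.Agent.S0604.result]
    exact le_iSup (fun S : Sylow p ↥K => thompsonSubgroupOf p (S : Subgroup ↥K)) S
  have hJSL : thompsonSubgroupOf p ((S : Subgroup ↥K) ⊓ L) = thompsonSubgroupOf p (S : Subgroup ↥K) :=
    LocalP.thompsonSubgroupOf_eq_of_le inf_le_left
      (le_inf (LocalP.thompsonSubgroupOf_le _) (hJ.trans le_sup_left))
  have hNM : Subgroup.normalizer (((S : Subgroup ↥K) ⊓ L : Subgroup ↥K) : Set ↥K) ≤ M₀ := by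
    refine le_trans ?_ (le_sup_left.trans le_sup_left)
    rw [← hJSL]
    exact LocalP.le_normalizer_thompsonSubgroupOf _
  suffices hLM : L ≤ M₀ by
    refine eq_top_iff.2 fun k _ => ?_
    obtain ⟨n, hn, c, hc, rfl⟩ := exists_frattini S L k
    exact mul_mem (hNM hn) (hLM hc)
  by_cases hne : hgrp p ↥K = ⊥
  · refine sup_le (fun k hk => hCM (act_eq_one.1 ?_)) hCM
    exact Subgroup.mem_bot.1 (hne ▸ (⟨k, hk, rfl⟩ : act (p := p) k ∈ hgrp p ↥K))
  have hS := factorAction hsep hO (outer hXK) (isPGroup_of_elementary hX) (five_le_of_ne_bot hq hsep hO hne).2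
  have hLmap : L.map (act (p := p)) = hgrp p ↥K := by
    rw [hL, Subgroup.map_sup]
    refine sup_eq_left.2 ?_
    rintro _ ⟨c, hc, rfl⟩
    rw [act_eq_one.2 hc]
    exact one_mem _
  have key := hS.le_of_sylow (T := ((S : Subgroup ↥K) ⊓ L).map (act (p := p))) (X := M₀.map (act (p := p)))
    (Subgroup.map_mono (Subgroup.le_normalizer.trans hNM)) ?_ ?_
  · intro k hk
    obtain ⟨m, hm, he⟩ := key (hLmap.le ⟨k, hk, rfl⟩)
    have h1 : m⁻¹ * k ∈ C := act_eq_one.1 (by rw [map_mul, map_inv, he, inv_mul_cancel])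
    rw [show k = m * (m⁻¹ * k) by group]
    exact mul_mem hm (hCM h1)
  · rintro _ ⟨⟨k, -, rfl⟩, hk⟩
    obtain ⟨k', hk', he⟩ := exists_fixed_lift hXK hX hq hk
    exact ⟨k', Subgroup.mem_sup_right hk', he⟩
  · intro t ht htp
    obtain ⟨l, hl, rfl⟩ := hLmap.ge ht
    set d := orderOf l / p ^ (orderOf l).factorization p with hd
    have hpel : IsPGroup p ↥(Subgroup.zpowers (l ^ d)) := by
      refine IsPGroup.iff_card.2 ?_
      rw [Nat.card_zpowers, orderOf_pow]
      obtain ⟨j, -, hj⟩ := (Nat.dvd_prime_pow (Fact.out : p.Prime)).1 (show orderOf l / Nat.gcd (orderOf l) d ∣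
          p ^ (orderOf l).factorization p by
        rw [Nat.gcd_eq_right (Nat.ordCompl_dvd _ _), Nat.div_div_self (Nat.ordProj_dvd _ _) (orderOf_pos l).ne'])
      exact ⟨j, hj⟩
    obtain ⟨S', hS'⟩ := hpel.exists_le_sylow
    obtain ⟨g, hg⟩ := MulAction.exists_smul_eq ↥K S S'
    have hgl : g⁻¹ * (l ^ d) * g ∈ (S : Subgroup ↥K) ⊓ L := by
      refine ⟨?_, by simpa using (inferInstance : L.Normal).conj_mem _ (pow_mem hl d) g⁻¹⟩
      have h1 := hS' (Subgroup.mem_zpowers _)
      rw [← hg, Sylow.coe_subgroup_smul, Subgroup.mem_pointwise_smul_iff_inv_smul_mem] at h1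
      generalize l ^ d = u at h1 ⊢
      simp only [MulAut.smul_def, map_inv, MulAut.conj_inv_apply] at h1
      exact h1
    obtain ⟨n, hn, c, hc, hnc⟩ := exists_frattini S L g⁻¹
    have hcl : c * (l ^ d) * c⁻¹ ∈ (S : Subgroup ↥K) ⊓ L := by
      refine (Subgroup.mem_normalizer_iff.1 hn _).2 ?_
      have : n * (c * (l ^ d) * c⁻¹) * n⁻¹ = g⁻¹ * (l ^ d) * g := by
        rw [show g⁻¹ * (l ^ d) * g = g⁻¹ * (l ^ d) * g⁻¹⁻¹ by group, hnc]; group
      rwa [this]
    refine ⟨act c, hLmap.le ⟨c, hc, rfl⟩, ?_⟩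
    obtain ⟨i, hi⟩ : ∃ i : ℕ, (act (p := p) l ^ d) ^ i = act l := by
      obtain ⟨i, hi⟩ := exists_pow_eq_self_of_coprime (n := d) (x := act (p := p) l)
        ((((Fact.out : p.Prime).coprime_iff_not_dvd.2
          (Nat.not_dvd_ordCompl Fact.out (orderOf_pos l).ne')).symm).coprime_dvd_right
          (orderOf_dvd_of_pow_eq_one htp))
      exact ⟨i, hi⟩
    rw [← hi, ← conj_pow, ← map_pow, ← map_inv, ← map_mul, ← map_mul]
    exact pow_mem (Subgroup.mem_map_of_mem _ hcl) i

theorem exists_plane (hXK : X ≤ Subgroup.normalizer (K : Set G)) (hX : IsElementaryAbelian q X)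
    (hq : ¬ q ∣ Nat.card K) (hsep : IsPSolvable p ↥K) (hO : pPrimeCore p ↥K = ⊥) (hne : hgrp p ↥K ≠ ⊥) :
    ∃ W D : Subgroup G, W ≤ K ⊓ Subgroup.centralizer (X : Set G) ∧ D ≤ K ⊓ Subgroup.centralizer (X : Set G) ∧
      IsElementaryAbelian p W ∧ Nat.card W = p ^ 2 ∧ D ≤ Subgroup.normalizer (W : Set G) ∧
      ∃ _hn : ((Subgroup.centralizer (W : Set G)).subgroupOf D).Normal,
        Nonempty ((↥D ⧸ (Subgroup.centralizer (W : Set G)).subgroupOf D) ≃*
          Matrix.SpecialLinearGroup (Fin 2) (ZMod p)) := by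
  have hS := factorAction hsep hO (outer hXK) (isPGroup_of_elementary hX) (five_le_of_ne_bot hq hsep hO hne).2
  obtain ⟨Wm, Dm, hWm, hDm, hWc, hDn, hDc, ⟨θ⟩⟩ := hS.exists_diagonal hne
  set V := centerClosure p ↥K with hV
  set W₀ := Wm.comap (emb (p := p) (K := ↥K)) with hW₀
  have hW₀map : W₀.map emb = Wm := Subgroup.map_comap_eq_self fun w hw => (hWm hw).1
  set ι : ↥V →* G := K.subtype.comp V.subtype with hι
  have hιi : Function.Injective ι := Subtype.val_injective.comp Subtype.val_injective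
  set fixed := (Subgroup.centralizer (X : Set G)).subgroupOf K with hfixed
  set D₀ := Dm.comap (act (p := p) (K := ↥K)) ⊓ fixed with hD₀
  have hact : ∀ k ∈ D₀, ∀ v ∈ W₀, MulAut.conjNormal k v ∈ W₀ := fun k hk v hv => by
    show emb _ ∈ Wm
    rw [← act_emb]
    exact (Subgroup.mem_normalizer_iff.1 (hDn hk.1) _).1 hv
  refine ⟨W₀.map ι, D₀.map K.subtype, ?_, ?_, ?_, ?_, ?_, ?_⟩
  · rintro _ ⟨v, hv, rfl⟩
    refine ⟨(v : ↥K).2, Subgroup.mem_centralizer_iff.2 fun x hx => ?_⟩
    have h1 : actAut (p := p) (outer hXK ⟨x, hx⟩) * emb v * (actAut (p := p) (outer hXK ⟨x, hx⟩))⁻¹ = emb v := by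
      have h2 := Subgroup.mem_centralizer_iff.1 (hWm hv).2 (actAut (p := p) (outer hXK ⟨x, hx⟩)) ⟨⟨x, hx⟩, rfl⟩
      rw [h2, mul_inv_cancel_right]
    rw [actAut_emb, emb_injective.eq_iff] at h1
    have h3 : x * ((v : ↥K) : G) * x⁻¹ = ((v : ↥K) : G) := congrArg (fun w : ↥V => ((w : ↥K) : G)) h1
    exact mul_inv_eq_iff_eq_mul.1 h3
  · rintro _ ⟨k, hk, rfl⟩
    exact ⟨k.2, hk.2⟩
  · exact LocalP.isElementaryAbelian_map _ (LocalP.isElementaryAbelian_mono
      (LocalP.isElementaryAbelian_of_map V.subtype Subtype.val_injective (by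
        rw [← MonoidHom.range_eq_map, Subgroup.range_subtype]
        exact centerClosure_pow (centralizer_le hsep hO))) (le_top : W₀ ≤ ⊤))
  · rw [Subgroup.card_map_of_injective hιi, ← hWc, ← hW₀map, Subgroup.card_map_of_injective emb_injective]
  · rintro _ ⟨k, hk, rfl⟩
    refine Subgroup.mem_normalizer_iff_map_conj_eq.2 (Subgroup.eq_of_le_of_card_ge ?_
      (Subgroup.card_map_of_injective (MulAut.conj _).injective).ge)
    rintro _ ⟨_, ⟨v, hv, rfl⟩, rfl⟩
    exact ⟨MulAut.conjNormal k v, hact k hk v hv, rfl⟩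
  · -- the homomorphism onto the diagonal `SL₂(p)`
    let e := Subgroup.equivMapOfInjective D₀ K.subtype Subtype.val_injective
    let r : ↥D₀ →* ↥Dm := ((act (p := p)).comp D₀.subtype).codRestrict Dm fun k => k.2.1
    let φ : ↥(D₀.map K.subtype) →* Matrix.SpecialLinearGroup (Fin 2) (ZMod p) :=
      θ.toMonoidHom.comp (r.comp e.symm.toMonoidHom)
    have hker : φ.ker = (Subgroup.centralizer (W₀.map ι : Set G)).subgroupOf (D₀.map K.subtype) := by
      ext d
      obtain ⟨k, rfl⟩ := e.surjective d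
      rw [MonoidHom.mem_ker, Subgroup.mem_subgroupOf]
      show θ (r (e.symm (e k))) = 1 ↔ ((k : ↥K) : G) ∈ _
      rw [MulEquiv.symm_apply_apply, EmbeddingLike.map_eq_one_iff, Subgroup.mem_centralizer_iff]
      constructor
      · intro h
        rintro _ ⟨v, -, rfl⟩
        have h1 : act (p := p) (k : ↥K) = 1 := congrArg Subtype.val h
        exact congrArg Subtype.val (Subgroup.mem_centralizer_iff.1 (act_eq_one.1 h1) _ v.2)
      · intro h
        refine Subtype.ext (Subgroup.mem_bot.1 (hDc ▸ Subgroup.mem_inf.2 ⟨k.2.1, ?_⟩))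
        rw [← hW₀map]
        exact act_mem_centralizer_emb.2 fun v hv => Subtype.ext (h _ ⟨v, hv, rfl⟩).symm
    have hsurj : Function.Surjective φ := by
      intro y
      obtain ⟨⟨m, hm⟩, rfl⟩ := θ.surjective y
      obtain ⟨j, -, hj⟩ := (hDm hm).1
      obtain ⟨k', hk', he⟩ := exists_fixed_lift hXK hX hq (k := j) (hj.symm ▸ (hDm hm).2)
      refine ⟨e ⟨k', ⟨show act k' ∈ Dm by rw [he, hj]; exact hm, hk'⟩⟩, ?_⟩
      show θ (r (e.symm (e _))) = _
      rw [MulEquiv.symm_apply_apply]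
      exact congrArg θ (Subtype.ext (he.trans hj))
    haveI hn : ((Subgroup.centralizer (W₀.map ι : Set G)).subgroupOf (D₀.map K.subtype)).Normal :=
      hker ▸ MonoidHom.normal_ker φ
    exact ⟨hn, ⟨(QuotientGroup.quotientMulEquivOfEq hker.symm).trans
      (QuotientGroup.quotientKerEquivOfSurjective φ hsurj)⟩⟩

end CfsgLib.GlaubermanZJ.Failure
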