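import Cfsg.Agent.GlaubermanZJ.FactorOrbit
import Cfsg.Agent.GlaubermanZJ.CenterClosure
import Cfsg.Agent.Constrained.CyclicNormalSylow
import Mathlib.GroupTheory.SemidirectProduct

/-!
The model for the failure of Thompson factorization: `V ⋊ Aut(V)` for `V` the normal closure of `Ω₁(Z(S))`, with the
image of `J(K)` as a group generated by best offenders, and an outer group acting on it.
-/

set_option autoImplicit false

open Cfsg

namespace CfsgLib.GlaubermanZJ.Failure

variable {K : Type*} [Group K] [Finite K] {p : ℕ} [Fact p.Prime]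

instance : (centerClosure p K).Normal := centerClosure_normal

/-- `V ⋊ Aut(V)`. -/
abbrev Amb (p : ℕ) [Fact p.Prime] (K : Type*) [Group K] [Finite K] : Type _ :=
  ↥(centerClosure p K) ⋊[MonoidHom.id _] MulAut ↥(centerClosure p K)

instance : Finite (Amb p K) :=
  haveI : Finite (MulAut ↥(centerClosure p K)) := Finite.of_injective (fun e => (e : ↥(centerClosure p K) → _))
    DFunLike.coe_injective
  Finite.of_equiv _ SemidirectProduct.equivProd.symm

/-- The action of `K` on `V`. -/
noncomputable def act : K →* Amb p K := SemidirectProduct.inr.comp (MulAut.conjNormal)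

/-- `V` in the model. -/
noncomputable def emb : ↥(centerClosure p K) →* Amb p K := SemidirectProduct.inl

theorem emb_injective : Function.Injective (emb (p := p) (K := K)) := SemidirectProduct.inl_injective

theorem act_emb (k : K) (v : ↥(centerClosure p K)) :
    act k * emb v * (act k)⁻¹ = emb (MulAut.conjNormal k v) := by
  rw [act, emb, MonoidHom.comp_apply, ← map_inv, ← SemidirectProduct.inl_aut]
  rfl

theorem act_eq_one {k : K} : act (p := p) k = 1 ↔ k ∈ Subgroup.centralizer (centerClosure p K : Set K) := by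
  rw [act, MonoidHom.comp_apply, ← map_one (SemidirectProduct.inr : _ →* Amb p K),
    SemidirectProduct.inr_injective.eq_iff, Subgroup.mem_centralizer_iff]
  constructor
  · intro h v hv
    have h1 : k * v * k⁻¹ = v :=
      congrArg Subtype.val (DFunLike.congr_fun h (⟨v, hv⟩ : ↥(centerClosure p K)))
    exact (mul_inv_eq_iff_eq_mul.1 h1).symm
  · intro h
    ext v
    show k * v * k⁻¹ = v
    rw [← h v v.2, mul_inv_cancel_right]

theorem act_mem_centralizer_emb {k : K} {T : Subgroup ↥(centerClosure p K)} :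
    act k ∈ Subgroup.centralizer ((T.map emb : Subgroup (Amb p K)) : Set (Amb p K)) ↔
      ∀ v ∈ T, k * (v : K) = v * k := by
  rw [Subgroup.mem_centralizer_iff]
  constructor
  · intro h v hv
    have h1 : act k * emb v * (act k)⁻¹ = emb v := by rw [← h _ ⟨v, hv, rfl⟩, mul_inv_cancel_right]
    rw [act_emb, emb_injective.eq_iff] at h1
    exact mul_inv_eq_iff_eq_mul.1 (congrArg Subtype.val h1)
  · rintro h _ ⟨v, hv, rfl⟩
    refine (mul_inv_eq_iff_eq_mul.1 ?_).symm
    rw [act_emb, emb_injective.eq_iff]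
    exact Subtype.ext (mul_inv_eq_iff_eq_mul.2 (h v hv))

/-- The image of `J(K)`. -/
noncomputable abbrev hgrp (p : ℕ) [Fact p.Prime] (K : Type*) [Group K] [Finite K] : Subgroup (Amb p K) :=
  (thompsonSubgroup p K).map (act (p := p))

variable (hsep : IsPSolvable p K) (hO : pPrimeCore p K = ⊥)
include hsep hO

theorem centralizer_le : Subgroup.centralizer (pCore p K : Set K) ≤ pCore p K :=
  Constrained.centralizer_pCore_le hsep hO

theorem setting : FFModule.Setting p (emb (K := K)).range (hgrp p K)
    ((pPrimeCore p ↥(hgrp p K)).map (hgrp p K).subtype) := by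
  set C := Subgroup.centralizer (centerClosure p K : Set K) with hC
  haveI : C.Normal := Subgroup.normal_centralizer
  have hle : C ≤ (act (p := p) (K := K)).ker := fun c hc => act_eq_one.2 hc
  let g : K ⧸ C →* Amb p K := QuotientGroup.lift C act hle
  have hg : Function.Injective g := by
    refine (injective_iff_map_eq_one _).2 fun x hx => ?_
    induction x using QuotientGroup.induction_on with | H k => ?_
    exact (QuotientGroup.eq_one_iff k).2 (act_eq_one.1 hx)
  set J₀ := (thompsonSubgroup p K).map (QuotientGroup.mk' C) with hJ₀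
  haveI := LocalP.thompsonSubgroup_characteristic (p := p) (G := K)
  haveI : J₀.Normal := Subgroup.Normal.map inferInstance _ (QuotientGroup.mk'_surjective C)
  have hJg : hgrp p K = J₀.map g := by rw [hJ₀, Subgroup.map_map]; rfl
  have hcore : pCore p ↥J₀ = ⊥ := by
    rw [Constrained.pCore_subgroup_eq, pCore_quotient_centralizer_eq_bot _ centerClosure_le_iSup,
      Subgroup.bot_subgroupOf]
  let e : ↥J₀ ≃* ↥(hgrp p K) := (Subgroup.equivMapOfInjective J₀ g hg).trans (MulEquiv.subgroupCongr hJg.symm)
  have hsepH : IsPSolvable p ↥(hgrp p K) :=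
    Constrained.IsPSolvable.of_mulEquiv (Constrained.IsPSolvable.subgroup (Constrained.IsPSolvable.quotient hsep C) J₀) e
  have hcoreH : pCore p ↥(hgrp p K) = ⊥ := by rw [← Constrained.pCore_map e p, hcore, Subgroup.map_bot]
  refine FFModule.Setting.of_pPrimeCore ?_ ?_ ?_ (Constrained.centralizer_pPrimeCore_le hsepH hcoreH)
  · rw [MonoidHom.range_eq_map]
    exact LocalP.isElementaryAbelian_map _ (LocalP.isElementaryAbelian_of_map (centerClosure p K).subtype
      Subtype.val_injective (by
        rw [← MonoidHom.range_eq_map, Subgroup.range_subtype]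
        exact centerClosure_pow (centralizer_le hsep hO)))
  · rw [emb, SemidirectProduct.range_inl_eq_ker_rightHom, Subgroup.normalizer_eq_top]
    exact le_top
  · rw [eq_bot_iff]
    rintro _ ⟨⟨k, -, rfl⟩, hk⟩
    rw [MonoidHom.range_eq_map] at hk
    have hk := act_mem_centralizer_emb.1 hk
    exact Subgroup.mem_bot.2 (act_eq_one.2 (Subgroup.mem_centralizer_iff.2 fun v hv =>
      (hk ⟨v, hv⟩ (Subgroup.mem_top _)).symm))

theorem gen : hgrp p K = ⨆ A : {A : Subgroup (Amb p K) // A ≤ hgrp p K ∧
    IsBestOffenderOn p (emb (K := K)).range A}, (A : Subgroup (Amb p K)) := by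
  have S := setting hsep hO
  set V := centerClosure p K with hV
  set C := Subgroup.centralizer (V : Set K) with hC
  haveI : C.Normal := Subgroup.normal_centralizer
  refine le_antisymm ?_ (iSup_le fun A => A.2.1)
  refine Subgroup.map_le_iff_le_comap.2 ((LocalP.thompsonSubgroup_eq_sSup (p := p) K).le.trans
    (sSup_le fun A hA => Subgroup.map_le_iff_le_comap.1 ?_))
  have hAle : A.map (act (p := p)) ≤ hgrp p K := Subgroup.map_mono (by
    rw [LocalP.thompsonSubgroup_eq_sSup]; exact le_sSup hA)
  have hAel : IsElementaryAbelian p A := hA.2.1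
  refine le_iSup_of_le (f := fun A : {A // A ≤ hgrp p K ∧ IsBestOffenderOn p (emb (K := K)).range A} => (A : Subgroup (Amb p K)))
    ⟨A.map act, hAle, ((S.offender_iff).1 ⟨hAle, LocalP.isElementaryAbelian_map _ hAel, ?_⟩).2⟩ le_rfl
  refine le_antisymm (S.card_mul_fixedPts_le hAle (LocalP.isElementaryAbelian_map _ hAel)) ?_
  -- `(A ⊓ C) ⊔ V` is elementary abelian, so `|V| ≤ |Ā| |C_V(A)|`
  have hVel : IsElementaryAbelian p V := centerClosure_pow (centralizer_le hsep hO)
  have hBel : IsElementaryAbelian p ((A ⊓ C) ⊔ V) := LocalP.isElementaryAbelian_sup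
    (LocalP.isElementaryAbelian_mono hAel inf_le_left) hVel
    fun a ha v hv => (Subgroup.mem_centralizer_iff.1 (Subgroup.mem_inf.1 ha).2 v hv).symm
  have h1 := (LocalP.card_mul_le_card_sup_mul_card_inf (A ⊓ C) V).trans
    (Nat.mul_le_mul_right _ (hA.2.2 _ le_top hBel))
  have h2 : Nat.card ↥(A ⊓ C) * Nat.card ↥(A.map (act (p := p))) = Nat.card A := by
    have hk : (act (p := p) (K := K)).ker = C := by ext k; exact act_eq_one
    have := Subgroup.relIndex_mul_relIndex ⊥ (A ⊓ C) A bot_le inf_le_left
    rw [Subgroup.relIndex_bot_left, Subgroup.relIndex_bot_left, Subgroup.inf_relIndex_left, ← hk,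
      ← MonoidHom.comap_bot, Subgroup.relIndex_comap, Subgroup.relIndex_bot_left, MonoidHom.comap_bot, hk] at this
    exact this
  have h3 : Nat.card ↥(A ⊓ C ⊓ V) ≤ Nat.card ↥(FFModule.fixedPts (emb (K := K)).range (A.map (act (p := p)))) := by
    rw [show Nat.card ↥(A ⊓ C ⊓ V) = Nat.card ↥(((A ⊓ C ⊓ V).subgroupOf V).map emb) by
      rw [Subgroup.card_map_of_injective emb_injective]
      exact (Nat.card_congr (Subgroup.subgroupOfEquivOfLe inf_le_right).toEquiv).symm]
    refine Subgroup.card_le_of_le ?_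
    rintro _ ⟨v, hv, rfl⟩
    refine FFModule.mem_fixedPts.2 ⟨⟨v, rfl⟩, ?_⟩
    rintro _ ⟨a, ha, rfl⟩
    refine mul_inv_eq_iff_eq_mul.1 ?_
    rw [act_emb, emb_injective.eq_iff]
    exact Subtype.ext (mul_inv_eq_iff_eq_mul.2 ((LocalP.isElementaryAbelian_iff.1 hAel).1 a ha v hv.1.1))
  rw [← Nat.card_congr (MonoidHom.ofInjective (emb_injective (p := p) (K := K))).toEquiv]
  refine Nat.le_of_mul_le_mul_left ?_ (Nat.card_pos (α := ↥(A ⊓ C)))
  calc Nat.card ↥(A ⊓ C) * Nat.card V ≤ Nat.card A * Nat.card ↥(A ⊓ C ⊓ V) := h1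
    _ ≤ _ := by rw [← mul_assoc, h2]; exact Nat.mul_le_mul_left _ h3

omit hsep hO in
theorem hgrp_card_dvd : Nat.card ↥(hgrp p K) ∣ Nat.card K :=
  (Constrained.card_map_dvd_card _ _).trans (Subgroup.card_subgroup_dvd_card _)

omit hsep hO in
theorem centerClosure_map (φ : MulAut K) : (centerClosure p K).map φ.toMonoidHom = centerClosure p K := by
  refine Subgroup.eq_of_le_of_card_ge ?_ (Subgroup.card_map_of_injective φ.injective).ge
  rw [centerClosure, Subgroup.map_iSup]
  refine iSup_le fun S => ?_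
  refine le_trans ?_ (le_iSup (fun S : Sylow p K =>
    omegaOne p (((S : Subgroup K)) ⊓ Subgroup.centralizer ((S : Subgroup K) : Set K)))
      (S.mapSurjective (f := φ.toMonoidHom) φ.surjective))
  rw [omegaOne, MonoidHom.map_closure, Subgroup.closure_le]
  rintro _ ⟨x, ⟨⟨hx, hxc⟩, hxp⟩, rfl⟩
  refine Subgroup.subset_closure ⟨⟨⟨x, hx, rfl⟩, ?_⟩, by rw [← map_pow, hxp, map_one]⟩
  refine Subgroup.mem_centralizer_iff.2 ?_
  rintro _ ⟨s, hs, rfl⟩
  rw [← map_mul, ← map_mul, Subgroup.mem_centralizer_iff.1 hxc s hs]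

omit hsep hO in
theorem centerClosure_mem (φ : MulAut K) {v : K} (hv : v ∈ centerClosure p K) : φ v ∈ centerClosure p K :=
  (centerClosure_map φ).le ⟨v, hv, rfl⟩

omit hsep hO in
/-- The restriction of automorphisms of `K` to `V`. -/
noncomputable def restrict : MulAut K →* MulAut ↥(centerClosure p K) where
  toFun φ :=
    { toFun := fun v => ⟨φ v, centerClosure_mem φ v.2⟩
      invFun := fun v => ⟨φ.symm v, centerClosure_mem φ.symm v.2⟩
      left_inv := fun v => Subtype.ext (φ.symm_apply_apply v)
      right_inv := fun v => Subtype.ext (φ.apply_symm_apply v)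
      map_mul' := fun v w => Subtype.ext (map_mul φ (v : K) w) }
  map_one' := by ext v; rfl
  map_mul' φ χ := by ext v; rfl

omit hsep hO in
/-- An automorphism of `K` in the model. -/
noncomputable def actAut : MulAut K →* Amb p K := SemidirectProduct.inr.comp restrict

omit hsep hO in
theorem actAut_act (φ : MulAut K) (k : K) : actAut (p := p) φ * act k * (actAut φ)⁻¹ = act (φ k) := by
  rw [actAut, act, MonoidHom.comp_apply, MonoidHom.comp_apply, MonoidHom.comp_apply, ← map_inv, ← map_mul, ← map_mul]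
  congr 1
  ext v
  show φ (k * φ.symm v * k⁻¹) = φ k * v * (φ k)⁻¹
  simp

omit hsep hO in
theorem actAut_emb (φ : MulAut K) (v : ↥(centerClosure p K)) :
    actAut φ * emb v * (actAut φ)⁻¹ = emb ⟨φ v, centerClosure_mem φ v.2⟩ := by
  rw [actAut, emb, MonoidHom.comp_apply, ← map_inv, ← SemidirectProduct.inl_aut]
  rfl

/-- A `q`-group of automorphisms, `q ≥ 5`, in the model. -/
theorem factorAction {X : Type*} [Group X] (ψ : X →* MulAut K) {q : ℕ} (hX : IsPGroup q X) (hq : 5 ≤ q) :
    FactorAction p q (emb (K := K)).range (hgrp p K)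
      ((pPrimeCore p ↥(hgrp p K)).map (hgrp p K).subtype) ((actAut (p := p)).comp ψ).range := by
  have hH : ((actAut (p := p)).comp ψ).range ≤ Subgroup.normalizer (hgrp p K : Set (Amb p K)) := by
    rintro _ ⟨x, rfl⟩
    refine Subgroup.mem_normalizer_iff_map_conj_eq.2 (Subgroup.eq_of_le_of_card_ge ?_
      (Subgroup.card_map_of_injective (MulAut.conj _).injective).ge)
    rintro _ ⟨_, ⟨k, hk, rfl⟩, rfl⟩
    refine ⟨ψ x k, ?_, (actAut_act _ k).symm⟩
    exact (Subgroup.characteristic_iff_map_eq.1 LocalP.thompsonSubgroup_characteristic (ψ x)).le ⟨k, hk, rfl⟩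
  refine ⟨setting hsep hO, gen hsep hO, ?_, hH, ?_, ?_, hq⟩
  · rintro _ ⟨x, rfl⟩
    rw [emb, SemidirectProduct.range_inl_eq_ker_rightHom, Subgroup.normalizer_eq_top]
    exact Subgroup.mem_top _
  · intro y hy
    refine Subgroup.mem_normalizer_iff_map_conj_eq.2 ?_
    set N := hgrp p K
    let e : ↥N ≃* ↥N := (Subgroup.equivMapOfInjective N (MulAut.conj y).toMonoidHom (MulAut.conj y).injective).trans
      (MulEquiv.subgroupCongr (map_conj_eq (hH hy)))
    have he : (MulAut.conj y).toMonoidHom.comp N.subtype = N.subtype.comp e.toMonoidHom := MonoidHom.ext fun _ => rfl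
    show ((pPrimeCore p ↥N).map N.subtype).map (MulAut.conj y).toMonoidHom = _
    rw [Subgroup.map_map, he, ← Subgroup.map_map, Constrained.pPrimeCore_map e p]
  · exact hX.of_surjective ((actAut.comp ψ).rangeRestrict) (MonoidHom.rangeRestrict_surjective _)

end CfsgLib.GlaubermanZJ.Failure
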