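import Cfsg.Agent.GlaubermanZJ.QdFree
import Cfsg.Agent.QdSection.KInfFusion

/-!
In `Qd(p)` the subgroup `Z(J(T))` of a Sylow subgroup `T` does not control strong fusion.
-/

set_option autoImplicit false

open Cfsg
open CfsgLib.QdRankTwo

namespace CfsgLib.GlaubermanZJ

universe u

variable {p : ℕ} [Fact p.Prime]

theorem card_qdUpper : Nat.card (CfsgLib.QdSection.qdUpper p) = p * (p * p) := by
  rw [show p * (p * p) = Nat.card (ZMod p × ZMod p × ZMod p) by simp [Nat.card_prod]]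
  refine (Nat.card_eq_of_bijective (fun x : ZMod p × ZMod p × ZMod p =>
    (⟨qM 1 x.1 0 1 x.2.1 x.2.2 (by ring), x.1, x.2.1, x.2.2, rfl⟩ : CfsgLib.QdSection.qdUpper p)) ⟨?_, ?_⟩).symm
  · intro x y h
    obtain ⟨-, e1, -, -, e2, e3⟩ := CfsgLib.QdSection.qM_inj (h := by ring) (h' := by ring) (congrArg Subtype.val h)
    exact Prod.ext e1 (Prod.ext e2 e3)
  · rintro ⟨g, t, u, v, rfl⟩
    exact ⟨⟨t, u, v⟩, rfl⟩

theorem card_qdAbelianUpper : Nat.card (CfsgLib.QdSection.qdAbelianUpper p) = p * p := by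
  rw [show p * p = Nat.card (ZMod p × ZMod p) by simp [Nat.card_prod]]
  refine (Nat.card_eq_of_bijective (fun x : ZMod p × ZMod p =>
    (⟨qM 1 x.1 0 1 x.2 0 (by ring), x.1, x.2, rfl⟩ : CfsgLib.QdSection.qdAbelianUpper p)) ⟨?_, ?_⟩).symm
  · intro x y h
    obtain ⟨-, e1, -, -, e2, -⟩ := CfsgLib.QdSection.qM_inj (h := by ring) (h' := by ring) (congrArg Subtype.val h)
    exact Prod.ext e1 e2
  · rintro ⟨g, t, u, rfl⟩
    exact ⟨⟨t, u⟩, rfl⟩

theorem card_qdTranslations : Nat.card (CfsgLib.DefChar.qdTranslations p) = p * p := by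
  rw [show p * p = Nat.card (ZMod p × ZMod p) by simp [Nat.card_prod]]
  refine (Nat.card_eq_of_bijective (fun x : ZMod p × ZMod p =>
    (⟨tV x.1 x.2, tV_mem _ _⟩ : CfsgLib.DefChar.qdTranslations p)) ⟨?_, ?_⟩).symm
  · intro x y h
    obtain ⟨-, -, -, -, e1, e2⟩ := CfsgLib.QdSection.qM_inj (h := by ring) (h' := by ring) (congrArg Subtype.val h)
    exact Prod.ext e1 e2
  · rintro ⟨g, hg⟩
    obtain ⟨u, v, rfl⟩ := exists_tV hg
    exact ⟨⟨u, v⟩, rfl⟩

/-- Abelian subgroups of the upper part have order at most `p ^ 2`. -/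
theorem card_le_of_comm {B : Subgroup (Cfsg.qd p)} (hB : B ≤ CfsgLib.QdSection.qdUpper p)
    (hc : ∀ x ∈ B, ∀ y ∈ B, x * y = y * x) : Nat.card B ≤ p * p := by
  have hdvd := Subgroup.card_dvd_of_le hB
  rw [card_qdUpper, show p * (p * p) = p ^ 3 by ring] at hdvd
  obtain ⟨i, hi, hBi⟩ := (Nat.dvd_prime_pow (Fact.out : p.Prime)).1 hdvd
  have hp1 := (Fact.out : p.Prime).one_lt
  by_cases h2 : i ≤ 2
  · rw [hBi, ← pow_two]
    exact Nat.pow_le_pow_right (by omega) h2
  · exfalso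
    have hi3 : i = 3 := by omega
    have heq : B = CfsgLib.QdSection.qdUpper p := Subgroup.eq_of_le_of_card_ge hB
      (by rw [hBi, hi3, card_qdUpper]; exact le_of_eq (by ring))
    have h := hc (tU 1) (heq ▸ ⟨1, 0, 0, rfl⟩) (tV 0 1) (heq ▸ ⟨0, 0, 1, rfl⟩)
    rw [tU, tV, qM_mul, qM_mul] at h
    obtain ⟨-, -, -, -, e, -⟩ := CfsgLib.QdSection.qM_inj h
    simp at e

/-- In a group isomorphic to `Qd(p)`, for some Sylow subgroup the centre of the Thompson subgroup does not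
control strong fusion. -/
theorem exists_not_controlsStrongFusion_zj {H : Type u} [Group H] [Finite H] (e : H ≃* Cfsg.qd p) :
    ∃ T : Sylow p H, ¬ ControlsStrongFusion p (centerThompsonAOf (T : Subgroup H)) := by
  have hPp : IsPGroup p ((CfsgLib.QdSection.qdUpper p).comap e.toMonoidHom) :=
    CfsgLib.QdSection.isPGroup_qdUpper.comap_of_injective _ e.injective
  obtain ⟨T, hT⟩ := hPp.exists_le_sylow
  have hTe : (T : Subgroup H).map e.toMonoidHom = CfsgLib.QdSection.qdUpper p := by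
    refine CfsgLib.QdSection.eq_qdUpper_of_le (T.2.map _) ?_
    rw [← Subgroup.map_comap_eq_self_of_surjective (f := e.toMonoidHom) e.surjective (CfsgLib.QdSection.qdUpper p)]
    exact Subgroup.map_mono hT
  refine ⟨T, fun ⟨T', hUT, hfus⟩ => ?_⟩
  set U := centerThompsonAOf (T : Subgroup H) with hU
  have hcard : ∀ A : Subgroup (Cfsg.qd p), Nat.card ↥(A.comap e.toMonoidHom) = Nat.card A := fun A => by
    rw [← Subgroup.card_map_of_injective (f := e.toMonoidHom) e.injective (K := A.comap e.toMonoidHom),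
      Subgroup.map_comap_eq_self_of_surjective e.surjective]
  have hmax : ∀ A : Subgroup (Cfsg.qd p), A ≤ CfsgLib.QdSection.qdUpper p → Nat.card A = p * p →
      (∀ x ∈ A, ∀ y ∈ A, x * y = y * x) → U ≤ A.comap e.toMonoidHom := by
    intro A hA hcA hcomm
    rw [hU, centerThompsonAOf_eq_sInf]
    refine sInf_le ⟨(Subgroup.comap_mono hA).trans hT, ⟨⟨fun x y => Subtype.ext (e.injective ?_)⟩⟩,
      fun B hB hBc => ?_⟩
    · rw [Subgroup.coe_mul, Subgroup.coe_mul, map_mul, map_mul]; exact hcomm _ x.2 _ y.2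
    · rw [hcard, hcA, ← Subgroup.card_map_of_injective (f := e.toMonoidHom) e.injective (K := B)]
      refine card_le_of_comm (hTe ▸ Subgroup.map_mono hB) ?_
      rintro _ ⟨x, hx, rfl⟩ _ ⟨y, hy, rfl⟩
      rw [← map_mul, ← map_mul]
      exact congrArg _ (congrArg Subtype.val (hBc.is_comm.comm ⟨x, hx⟩ ⟨y, hy⟩))
  have hUV := hmax _ CfsgLib.QdSection.translations_le_qdUpper card_qdTranslations
    fun x hx y hy => translations_comm hx hy
  have hUA := hmax (CfsgLib.QdSection.qdAbelianUpper p) (fun g ⟨t, u, hg⟩ => ⟨t, u, 0, hg⟩) card_qdAbelianUpper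
    (by
      rintro _ ⟨t, u, rfl⟩ _ ⟨t', u', rfl⟩
      rw [qM_mul, qM_mul]; apply qM_congr <;> ring)
  set V := (CfsgLib.DefChar.qdTranslations p).comap e.toMonoidHom with hV
  haveI hVn : V.Normal := (CfsgLib.DefChar.qdTranslations_normal p).comap _
  have hVp : IsPGroup p V := (CfsgLib.DefChar.qdTranslations_isPGroup p).comap_of_injective _ e.injective
  have hVT : V ≤ (T : Subgroup H) := (Subgroup.comap_mono CfsgLib.QdSection.translations_le_qdUpper).trans hT
  have hTN : (T : Subgroup H) ≤ Subgroup.normalizer (U : Set H) :=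
    Subgroup.le_normalizer.trans ((abelianCenter.{u} p).normalizer_le_normalizer_obj (T : Subgroup H))
  have hVT' : V ≤ (T' : Subgroup H) :=
    (CfsgLib.Constrained.le_pCore hVn hVp).trans (CfsgLib.ConjFunctor.pCore_le_sylow T')
  have hall : ∀ h : H, h ∈ Subgroup.normalizer (U : Set H) := by
    intro h
    obtain ⟨x, hx, hxe⟩ := (hfus (V : Set H) hVT').2 h (by
      rintro _ ⟨a, ha, rfl⟩
      exact hVT' (hVn.conj_mem a ha h))
    have hc : x⁻¹ * h ∈ V := by
      show e (x⁻¹ * h) ∈ CfsgLib.DefChar.qdTranslations p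
      refine CfsgLib.QdSection.centralizer_translations (Subgroup.mem_centralizer_iff.2 fun w hw => ?_)
      obtain ⟨a, rfl⟩ := e.surjective w
      have h1 := hxe a hw
      rw [← map_mul, ← map_mul]
      congr 1
      calc a * (x⁻¹ * h) = x⁻¹ * (x * a * x⁻¹) * h := by group
        _ = x⁻¹ * (h * a * h⁻¹) * h := by rw [h1]
        _ = (x⁻¹ * h) * a := by group
    rw [show h = x * (x⁻¹ * h) by group]
    exact Subgroup.mul_mem _ hx (hTN (hVT hc))
  have hUn : U.Normal := Subgroup.normalizer_eq_top_iff.1 (eq_top_iff.2 fun h _ => hall h)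
  have hTne : (T : Subgroup H) ≠ ⊥ := fun h0 => by
    have h1 : e.symm (tV (1 : ZMod p) 0) ∈ (T : Subgroup H) :=
      hVT (show e (e.symm (tV (1 : ZMod p) 0)) ∈ _ by rw [MulEquiv.apply_symm_apply]; exact tV_mem _ _)
    rw [h0, Subgroup.mem_bot] at h1
    exact tV_one_ne (p := p) (by rw [← e.apply_symm_apply (tV (1 : ZMod p) 0), h1, map_one])
  obtain ⟨⟨x, hxU⟩, hx1⟩ := Subgroup.ne_bot_iff_exists_ne_one.1
    ((abelianCenter.{u} p).obj_ne_bot H (T : Subgroup H) T.2 hTne)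
  obtain ⟨t, u', hxA⟩ := hUA hxU
  obtain ⟨u, v, hxV⟩ := exists_tV (hUV hxU)
  change e x = _ at hxA hxV
  rw [hxV, tV] at hxA
  obtain ⟨-, -, -, -, -, hv⟩ := CfsgLib.QdSection.qM_inj hxA
  set w := e.symm (qM (0 : ZMod p) 1 (-1) 0 0 0 (by ring)) with hw
  have hconj := hUA (hUn.conj_mem _ hxU w)
  obtain ⟨t', u'', h'⟩ := hconj
  simp only [MulEquiv.toMonoidHom_eq_coe, MonoidHom.coe_coe, map_mul, map_inv, hw, MulEquiv.apply_symm_apply,
    hxV] at h'
  rw [mul_inv_eq_iff_eq_mul, tV, qM_mul, qM_mul] at h'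
  obtain ⟨-, -, -, -, -, e5⟩ := CfsgLib.QdSection.qM_inj h'
  have hu : u = 0 := by linear_combination -e5
  refine hx1 (Subtype.ext (e.injective ?_))
  show e x = e 1
  rw [hxV, map_one, tV, hu, hv, qM_one]

end CfsgLib.GlaubermanZJ
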